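import Cfsg.Agent.OD.Pre
import Cfsg.Agent.H6.HNM.D
set_option autoImplicit false
set_option maxRecDepth 100000
set_option Elab.async false
set_option linter.all false
namespace CfH6.HNM
open CfH6
theorem r1 : ∀ r ∈ (HNB.rels.drop 8), evw (evU sem ms HNB.il) r = 1 := U.rels (by decide +kernel)
end CfH6.HNM
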